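/-
Generating triples of `L₂(23)`.
-/
import Cfsg.Agent.KSG.ShortSL2
import Cfsg.Agent.SPOR.GraphIso
import Cfsg.Agent.SPOR.FiSw

set_option autoImplicit false
set_option maxHeartbeats 200000

namespace CL.BL

open Subgroup CL.SL2Hom CL.KSG Matrix
open scoped MatrixGroups

variable {G G' : Type*} [Group G] [Group G']

instance fact23 : Fact (Nat.Prime 23) := ⟨by norm_num⟩

/-- The relations of the standard generators of `L₂(23)`. -/
structure Trip (x y w : G) : Prop where
  x23 : x ^ 23 = 1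
  x1 : x ≠ 1
  y11 : y ^ 11 = 1
  yx : y * x * y⁻¹ = x ^ 4
  w2 : w * w = 1
  wy : w * y * w = y⁻¹
  wx : x * w * x * w * x = w

namespace Trip

variable {x y w : G} (h : Trip x y w)
include h

theorem map (f : G →* G') (hf : f x ≠ 1) : Trip (f x) (f y) (f w) :=
  ⟨by rw [← map_pow, h.x23, map_one], hf, by rw [← map_pow, h.y11, map_one],
    by rw [← map_inv, ← map_mul, ← map_mul, h.yx, map_pow], by rw [← map_mul, h.w2, map_one],
    by rw [← map_mul, ← map_mul, h.wy, map_inv], by simp only [← map_mul, h.wx]⟩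

omit h in
theorem of_map {f : G →* G'} (hf : Function.Injective f) (h : Trip (f x) (f y) (f w)) :
    Trip x y w :=
  ⟨hf (by simpa using h.x23), fun e => h.x1 (by rw [e, map_one]), hf (by simpa using h.y11),
    hf (by simpa using h.yx), hf (by simpa using h.w2), hf (by simpa using h.wy),
    hf (by simpa using h.wx)⟩

theorem conj (g : G) : Trip (g * x * g⁻¹) (g * y * g⁻¹) (g * w * g⁻¹) :=
  h.map (MulAut.conj g).toMonoidHom fun e => h.x1 (by simpa using e)

theorem winv : w⁻¹ = w := inv_eq_of_mul_eq_one_left h.w2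

theorem inv : Trip x⁻¹ y w :=
  ⟨by rw [inv_pow, h.x23, inv_one], inv_ne_one.2 h.x1, h.y11,
    by rw [inv_pow, ← h.yx]; group, h.w2, h.wy, by
      have := congrArg (·⁻¹) h.wx
      simpa only [_root_.mul_inv_rev, h.winv, mul_assoc] using this⟩

theorem ord_x : orderOf x = 23 := orderOf_eq_prime h.x23 h.x1

theorem x_mod (k : ℕ) : x ^ (k % 23) = x ^ k := by rw [← h.ord_x, pow_mod_orderOf]

theorem ord_y : orderOf y = 11 := by
  have : Fact (Nat.Prime 11) := ⟨by norm_num⟩
  refine orderOf_eq_prime h.y11 fun e => ?_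
  have h1 := h.yx
  rw [e, one_mul, inv_one, mul_one] at h1
  have h2 : x ^ 3 = 1 := mul_left_cancel (a := x) (by rw [← pow_succ', mul_one]; exact h1.symm)
  have := orderOf_dvd_of_pow_eq_one h2
  rw [h.ord_x] at this
  omega

theorem pow_conj (i j : ℕ) : y ^ i * x ^ j * (y ^ i)⁻¹ = x ^ (4 ^ i * j) := by
  induction i generalizing j with
  | zero => simp
  | succ i ih =>
    calc _ = y ^ i * (y * x * y⁻¹) ^ j * (y ^ i)⁻¹ := by rw [conj_pow, pow_succ]; group
      _ = _ := by rw [h.yx, ← pow_mul, ih, pow_succ, mul_assoc]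

theorem wxw : w * x * w = x⁻¹ * w * x⁻¹ := by
  calc _ = x⁻¹ * (x * w * x * w * x) * x⁻¹ := by group
    _ = _ := by rw [h.wx]

theorem exists_hom : ∃ φ : SL(2, ZMod 23) →* G, φ.range = closure {x, y, w} ∧ φ (upper 1) = x ∧
    center _ ≤ φ.ker := by
  let X : ZMod 23 → G := fun t => x ^ t.val
  have hx : ∀ s t, X (s + t) = X s * X t := fun s t => by
    simp only [X]
    rw [← pow_add, ZMod.val_add, h.x_mod]
  have hh : ∀ t, y * X t * y⁻¹ = X (4 * t) := fun t => by
    simp only [X]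
    rw [← conj_pow, h.yx, ← pow_mul, ZMod.val_mul, h.x_mod,
      show (4 : ZMod 23).val = 4 by decide +kernel]
  have hT : w * y * w⁻¹ = y⁻¹ := by rw [h.winv, h.wy]
  have h0 : (4 : ZMod 23) ≠ 0 := by decide +kernel
  have x1 : X 1 = x := by
    simp only [X]
    rw [show (1 : ZMod 23).val = 1 by decide +kernel, pow_one]
  have x2 : X (-1) = x⁻¹ := by rw [addx_neg hx, x1]
  have n1 : nn X (fun t => w * X (-t) * w⁻¹) 1 = y ^ 0 * w := by
    simp only [nn, inv_one, neg_neg, x1, h.winv, pow_zero, one_mul, ← mul_assoc, h.wx]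
  have n2 : nn X (fun t => w * X (-t) * w⁻¹) (-1) = y ^ 0 * w := by
    simp only [nn, inv_neg, inv_one, neg_neg, x2, h.winv, pow_zero, one_mul, ← mul_assoc, h.inv.wx]
  have hs : ∀ s : ZMod 23, s ≠ 0 → ∃ i < 11, s = 4 ^ i * 1 ∨ s = 4 ^ i * -1 := by
    decide +kernel
  have R : Rel X (fun t => w * X (-t) * w⁻¹) := sl2_rel_of hx hh hT h0 fun s h1 => by
    obtain ⟨i, -, rfl | rfl⟩ := hs s h1
    · exact ⟨_, sl2_conj_nn hh hT h0 i 1 n1, by ring⟩
    · exact ⟨_, sl2_conj_nn hh hT h0 i (-1) n2, by ring⟩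
  have hC := R.h_mul_of_finite
  have m1 : x ∈ closure {x, y, w} := subset_closure (by simp)
  have m3 : w ∈ closure {x, y, w} := subset_closure (by simp)
  have e1 : R.hom hC (nmat 1 one_ne_zero) = w := by rw [R.hom_nmat, n1, pow_zero, one_mul]
  refine ⟨R.hom hC, le_antisymm ?_ ((closure_le _).2 ?_), (R.hom_upper hC 1).trans x1, ?_⟩
  · rw [R.range_hom]
    refine sup_le ((closure_le _).2 ?_) ((closure_le _).2 ?_)
    · rintro _ ⟨t, rfl⟩
      exact pow_mem m1 _
    · rintro _ ⟨t, rfl⟩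
      exact mul_mem (mul_mem m3 (pow_mem m1 _)) (inv_mem m3)
  · rintro _ (rfl | rfl | rfl)
    · exact ⟨upper 1, (R.hom_upper hC 1).trans x1⟩
    · have := sl2_conj_nn hh hT h0 6 1 n1
      refine ⟨nmat (4 ^ 6 * 1) (by decide +kernel) * nmat 1 one_ne_zero, ?_⟩
      rw [map_mul, e1, R.hom_nmat, this, mul_assoc, h.w2, mul_one, pow_succ, h.y11, one_mul]
    · exact ⟨_, e1⟩
  · intro A hA
    obtain ⟨r, h1, h2⟩ := Matrix.SpecialLinearGroup.mem_center_iff.1 hA
    have h3 : r = 1 ∨ r = -1 := by clear h2; revert r; decide +kernel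
    have h4 : A = 1 ∨ A = nmat 1 one_ne_zero * nmat 1 one_ne_zero := by
      refine h3.imp (fun e => Subtype.ext ?_) fun e => Subtype.ext ?_
      · rw [← h2, e, map_one]; rfl
      · rw [← h2, e]
        ext i j
        fin_cases i <;> fin_cases j <;> simp [coe_nmat, Matrix.mul_apply, Fin.sum_univ_two]
    rcases h4 with rfl | rfl
    · exact one_mem _
    · rw [MonoidHom.mem_ker, map_mul, e1, h.w2]

theorem nonempty_equiv {F : Type*} [Field F] [Fintype F] (hF : Fintype.card F = 23) :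
    Nonempty (closure {x, y, w} ≃* ProjectiveSpecialLinearGroup (Fin 2) F) := by
  obtain ⟨φ, h1, h2, h3⟩ := h.exists_hom
  have hs : IsSimpleGroup (ProjectiveSpecialLinearGroup (Fin 2) (ZMod 23)) :=
    CL.SL.psl_isSimpleGroup_of_perfect
      (CL.SL.commutator_eq_top_of_sq_ne_one (a := 2) (by decide +kernel) (by decide +kernel))
  let ψ : ProjectiveSpecialLinearGroup (Fin 2) (ZMod 23) →* G := QuotientGroup.lift _ φ h3
  have h4 : Function.Injective ψ := (MonoidHom.ker_eq_bot_iff _).1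
    ((IsSimpleGroup.eq_bot_or_eq_top_of_normal ψ.ker inferInstance).resolve_right fun e =>
      h.x1 (h2 ▸ (e.ge (mem_top (QuotientGroup.mk (upper 1))) :)))
  have h5 : ψ.range = closure {x, y, w} := h1 ▸ le_antisymm
    (by rintro _ ⟨a, rfl⟩; obtain ⟨a, rfl⟩ := QuotientGroup.mk_surjective a; exact ⟨a, rfl⟩)
    (by rintro _ ⟨a, rfl⟩; exact ⟨QuotientGroup.mk a, rfl⟩)
  exact ⟨((MulEquiv.subgroupCongr h5.symm).trans (MonoidHom.ofInjective h4).symm).trans
    (CL.Graph.pslCongr (ZMod.ringEquivOfPrime F (by norm_num) hF))⟩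

end Trip

theorem exists_trip0 : ∃ x y w : ProjectiveSpecialLinearGroup (Fin 2) (ZMod 23),
    Trip x y w ∧ Subgroup.closure {x, y, w} = ⊤ := by
  let q : SL(2, ZMod 23) →* ProjectiveSpecialLinearGroup (Fin 2) (ZMod 23) := QuotientGroup.mk' _
  let y : SL(2, ZMod 23) := ⟨!![2, 0; 0, 12], by decide +kernel⟩
  let w : SL(2, ZMod 23) := ⟨!![0, 1; 22, 0], by decide +kernel⟩
  let z : SL(2, ZMod 23) := ⟨!![22, 0; 0, 22], by decide +kernel⟩
  have hz : q z = 1 := (QuotientGroup.eq_one_iff _).2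
    (Matrix.SpecialLinearGroup.mem_center_iff.2 ⟨22, by decide +kernel, by decide +kernel⟩)
  have hu : ∀ k : ℕ, upper (k : ZMod 23) = upper 1 ^ k := fun k => by
    induction k with
    | zero => rw [Nat.cast_zero, sl2_rel.x_zero, pow_zero]
    | succ k ih => rw [Nat.cast_succ, sl2_rel.x_add, ih, pow_succ]
  have T : Trip (q (upper 1)) (q y) (q w) := by
    refine ⟨?_, fun e => ?_, ?_, ?_, ?_, ?_, ?_⟩
    · rw [← map_pow, ← hu, show ((23 : ℕ) : ZMod 23) = 0 from rfl, sl2_rel.x_zero, map_one]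
    · obtain ⟨r, -, h2⟩ := Matrix.SpecialLinearGroup.mem_center_iff.1 ((QuotientGroup.eq_one_iff _).1 e)
      have := congrFun (congrFun h2 0) 1
      simp [coe_upper] at this
    · rw [← map_pow, show y ^ 11 = 1 from Subtype.ext (by decide +kernel), map_one]
    · rw [← map_pow, mul_inv_eq_iff_eq_mul, ← map_mul, ← map_mul]
      exact congrArg q (Subtype.ext (by decide +kernel))
    · rw [← map_mul, ← hz]
      exact congrArg q (Subtype.ext (by decide +kernel))
    · rw [eq_inv_iff_mul_eq_one, ← map_mul, ← map_mul, ← map_mul, ← hz]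
      exact congrArg q (Subtype.ext (by decide +kernel))
    · rw [← mul_one (q w), ← hz]
      simp only [← map_mul]
      exact congrArg q (Subtype.ext (by decide +kernel))
  refine ⟨_, _, _, T, eq_top_iff.2 fun a _ => ?_⟩
  obtain ⟨a, rfl⟩ := QuotientGroup.mk_surjective a
  have m1 : ∀ t, upper t ∈ (Subgroup.closure {q (upper 1), q y, q w}).comap q := fun t => by
    rw [← ZMod.natCast_zmod_val t, hu]
    exact pow_mem (mem_comap.2 (Subgroup.subset_closure (by simp))) _
  have m2 : w ∈ (Subgroup.closure {q (upper 1), q y, q w}).comap q :=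
    mem_comap.2 (Subgroup.subset_closure (by simp))
  refine (sl2_top _ m1 fun t => ?_).ge (mem_top a)
  have e : nn upper lower (1 : ZMod 23) = w := Subtype.ext (by decide +kernel)
  rw [← neg_neg t, ← sl2_w_x, e]
  exact mul_mem (mul_mem m2 (m1 _)) (inv_mem m2)

theorem exists_trip {F : Type*} [Field F] [Fintype F] (hF : Fintype.card F = 23) {L : Subgroup G}
    (e : L ≃* ProjectiveSpecialLinearGroup (Fin 2) F) :
    ∃ x y w, Trip x y w ∧ Subgroup.closure {x, y, w} = L := by
  obtain ⟨x, y, w, h1, h2⟩ := exists_trip0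
  let f := L.subtype.comp ((CL.Graph.pslCongr (n := Fin 2)
    (ZMod.ringEquivOfPrime F (by norm_num) hF)).trans e.symm).toMonoidHom
  have hf : Function.Injective f := L.subtype_injective.comp (MulEquiv.injective _)
  refine ⟨_, _, _, h1.map f fun e => h1.x1 (hf (e.trans (map_one f).symm)), ?_⟩
  have := congrArg (Subgroup.map f) h2
  rw [MonoidHom.map_closure, Set.image_insert_eq, Set.image_pair, ← MonoidHom.range_eq_map] at this
  rw [this, MonoidHom.range_comp, MonoidHom.range_eq_top.2 (MulEquiv.surjective _),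
    ← MonoidHom.range_eq_map, range_subtype]

end CL.BL
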