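/-
Subgroups `L₂(23)` of the Baby Monster: the argument from the facts about double cosets.
-/
import Cfsg.Agent.SPOR.BL.Trip
import Cfsg.Agent.SPOR.BM.Fin
import Cfsg.Agent.SPOR.FiN7

set_option autoImplicit false
set_option maxHeartbeats 200000

namespace CL.BL

open Subgroup CL.BM CL.DCE Cfsg.Spor

theorem exists_norm {G : Type*} [Group G] [Finite G] {q a : ℕ} (hq : q.Prime)
    (hG : Nat.card G = q * a) (ha : ¬ q ∣ a) {K : Subgroup G} {u g : G} (hu : orderOf u = q)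
    (h1 : u ∈ K) (h2 : g⁻¹ * u * g ∈ K) : ∃ n, n * u * n⁻¹ ∈ zpowers u ∧ n⁻¹ * g ∈ K := by
  obtain ⟨b, hb⟩ := hu ▸ K.orderOf_dvd_natCard h1
  have h3 : ¬ q ∣ b := fun e => ha ((Nat.mul_dvd_mul_iff_left hq.pos).1
    ((Nat.mul_dvd_mul_left q e).trans (hb ▸ hG ▸ K.card_subgroup_dvd_card)))
  obtain ⟨k, hk⟩ := CL.Fi.exists_conj_of_card hq hb h3 (X := zpowers ⟨u, h1⟩)
    (Y := zpowers ⟨_, h2⟩) (by rw [Nat.card_zpowers, orderOf_mk, hu]) (by
      rw [Nat.card_zpowers, orderOf_mk, ← hu]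
      simpa using (MulAut.conj g⁻¹).orderOf_eq u)
  obtain ⟨j, hj⟩ := hk.le (mem_map_of_mem _ (mem_zpowers _))
  have h4 : (g⁻¹ * u * g⁻¹⁻¹) ^ j = (k : G) * u * (k : G)⁻¹ := by
    simpa using congrArg Subtype.val hj
  refine ⟨g * k, ⟨j, ?_⟩, by simp⟩
  rw [conj_zpow] at h4
  calc u ^ j = g * (g⁻¹ * u ^ j * g⁻¹⁻¹) * g⁻¹ := by group
    _ = _ := by rw [h4]; group

theorem card_norm11 {y : Fi23} (hy : orderOf y = 11) :
    Nat.card (normalizer (zpowers y : Set Fi23)) = 440 := by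
  obtain ⟨D, h, gp⟩ := CL.FiA.ex23
  have F : CL.FiC.Fi 2 D := ⟨h, gp.gen, gp.cen⟩
  have hX := (Nat.card_zpowers y).trans hy
  obtain ⟨d, b, -, -, -, e, K, h1, -, -, h2, h3⟩ := CL.FiN.eleven23 F hX
  have h4 := (CL.FiN.loc11_2 F hX).vc
  have h5 := h2.card
  have h6 := card_mul_index ((normalizer (zpowers y : Set Fi23) ⊓ centralizer {d}).subgroupOf
    (normalizer (zpowers y : Set Fi23)))
  rw [e] at h4
  rw [CL.card_subgroupOf_of_le inf_le_left, h5, h1, h4, h3] at h6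
  exact h6.symm

theorem cen23 {x y w : Fi23} (h : Trip x y w) {g : Fi23} (hg : g * x = x * g) : g ∈ zpowers x := by
  obtain ⟨D, h1, gp⟩ := CL.FiA.ex23
  rw [← (CL.Fi.D23.frobenius23 h1 gp ((Nat.card_zpowers x).trans h.ord_x)).2, mem_centralizer_iff]
  rintro _ ⟨k, rfl⟩
  exact (Commute.zpow_right hg k).eq.symm

theorem norm23 {x y w : Fi23} (h : Trip x y w) {g : Fi23} (hg : g * x * g⁻¹ ∈ zpowers x) :
    g ∈ Subgroup.closure {x, y} := by
  obtain ⟨D, h1, gp⟩ := CL.FiA.ex23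
  have h2 := (CL.Fi.D23.frobenius23 h1 gp ((Nat.card_zpowers x).trans h.ord_x)).1
  have h3 : Subgroup.closure {x, y} ≤ normalizer (zpowers x : Set Fi23) := by
    rw [closure_le]
    rintro _ (rfl | rfl)
    · exact le_normalizer (mem_zpowers _)
    · exact CL.FiN.mem_normalizer_zpowers.2 (h.yx ▸ pow_mem (mem_zpowers x) 4)
  refine (eq_of_le_of_card_ge h3 (h2.le.trans (Nat.le_of_dvd Nat.card_pos ?_))).ge
    (CL.FiN.mem_normalizer_zpowers.2 hg)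
  exact Nat.Coprime.mul_dvd_of_dvd_of_dvd (by norm_num)
    (h.ord_x ▸ Subgroup.orderOf_dvd_natCard _ (subset_closure (by simp)))
    (h.ord_y ▸ Subgroup.orderOf_dvd_natCard _ (subset_closure (by simp)))

/-- The facts used in `Fi₂₃`. -/
structure HF (x y f a r : Fi23) : Prop where
  trip : Trip x y (a * r)
  nf : ∀ n, n * y * n⁻¹ ∈ zpowers y →
    ∃ e < 2, ∃ m < 4, ∃ j < 5, ∃ i < 11, n = a ^ e * r ^ m * f ^ j * y ^ i
  inv : ∀ e < 2, ∀ m < 4, ∀ j < 5, y * (a ^ e * r ^ m * f ^ j) * y = a ^ e * r ^ m * f ^ j →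
    m % 2 = 1 ∧ j = 0
  cub : ∀ e < 2, ∀ m < 4, m % 2 = 1 → ∀ i < 11, (a ^ e * r ^ m * y ^ i * x) ^ 3 = 1 → e = 1 ∧ m = 1

namespace HF

variable {x y f a r : Fi23} (F : HF x y f a r)
include F

theorem inverts {n : Fi23} (h : n * y * n⁻¹ = y⁻¹) :
    ∃ e < 2, ∃ m < 4, m % 2 = 1 ∧ ∃ i < 11, n = a ^ e * r ^ m * y ^ i := by
  obtain ⟨e, he, m, hm, j, hj, i, hi, rfl⟩ := F.nf n (h ▸ inv_mem (mem_zpowers y))
  obtain ⟨h1, rfl⟩ := F.inv e he m hm j hj (by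
    generalize a ^ e * r ^ m * f ^ j = c at h
    calc _ = y * (c * y ^ i * y * (c * y ^ i)⁻¹) * c := by group
      _ = _ := by rw [h]; group)
  exact ⟨e, he, m, hm, h1, i, hi, by rw [pow_zero, mul_one]⟩

theorem closure_eq {w : Fi23} (h : Trip x y w) :
    Subgroup.closure {x, y, w} = Subgroup.closure {x, y, a * r} := by
  obtain ⟨e, he, m, hm, h1, i, hi, rfl⟩ := F.inverts (n := w) (by rw [h.winv, h.wy])
  obtain ⟨rfl, rfl⟩ := F.cub e he m hm h1 i hi (by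
    generalize a ^ e * r ^ m * y ^ i = w at h
    calc _ = w * (x * w * x * w * x) := by simp only [pow_succ, pow_zero, one_mul, mul_assoc]
      _ = 1 := by rw [h.wx, h.w2])
  rw [pow_one, pow_one]
  have m1 : ∀ z, x ∈ Subgroup.closure {x, y, z} := fun z => subset_closure (by simp)
  have m2 : ∀ z, y ∈ Subgroup.closure {x, y, z} := fun z => subset_closure (by simp)
  have m3 : ∀ z, z ∈ Subgroup.closure {x, y, z} := fun z => subset_closure (by simp)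
  refine le_antisymm ((closure_le _).2 ?_) ((closure_le _).2 ?_) <;> rintro _ (rfl | rfl | rfl)
  exacts [m1 _, m2 _, mul_mem (m3 _) (pow_mem (m2 _) _), m1 _, m2 _,
    (Subgroup.mul_mem_cancel_right _ (pow_mem (m2 _) i)).1 (m3 _)]

end HF

/-- `g` lies in the double coset number `i` -/
def Ty (γ : ℕ → BabyMonster) (g : BabyMonster) (i : ℕ) : Prop := ∃ v w, g = ψ0 v * γ i * ψ0 w

theorem Ty.mul {γ : ℕ → BabyMonster} {g : BabyMonster} {i : ℕ} (h : Ty γ g i) (v w : Fi23) :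
    Ty γ (ψ0 v * g * ψ0 w) i := by
  obtain ⟨v', w', rfl⟩ := h
  exact ⟨v * v', w' * w, by simp only [map_mul, mul_assoc]⟩

/-- the stabiliser of the coset `H U` -/
noncomputable def Kg (U : BabyMonster) : Subgroup Fi23 :=
  ψ0.range.comap ((MulAut.conj U).toMonoidHom.comp ψ0)

theorem mem_Kg {U : BabyMonster} {z : Fi23} : z ∈ Kg U ↔ U * ψ0 z * U⁻¹ ∈ ψ0.range := Iff.rfl

/-- The facts used about double cosets. -/
structure Cert (γ : ℕ → BabyMonster) (x y f a r k : Fi23) (h μ : ℕ → Fi23) : Prop where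
  sx : γ 6 * ψ0 x * (γ 6)⁻¹ = ψ0 (k⁻¹ * x * k)
  sy : γ 6 * ψ0 y * (γ 6)⁻¹ = ψ0 (k⁻¹ * y * k)
  sb : Ty γ (γ 6 * ψ0 (a * r) * (γ 6)⁻¹) 19
  hy : ∀ i ∈ [6, 7, 15, 19, 20, 21], γ i * ψ0 (h i * y * (h i)⁻¹) * (γ i)⁻¹ ∈ ψ0.range
  hf : ∀ i ∈ [6, 7, 15, 19, 20, 21], γ i * ψ0 (h i * f * (h i)⁻¹) * (γ i)⁻¹ ∈ ψ0.range
  t1 : ∀ i ∈ [6, 7, 15, 19, 20, 21], ∀ e < 2, ∀ m < 4, ∃ j < 23,
    Ty γ (γ i * ψ0 (h i * (a ^ e * r ^ m)⁻¹ * x * (h i * (a ^ e * r ^ m)⁻¹)⁻¹) * (γ i)⁻¹) j ∧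
      (j = i → (i = 19 ∧ e = 1 ∧ m = 0) ∨ (i = 20 ∧ m = 1))
  l : ∀ e < 2, γ 20 * ψ0 (h 20 * (a ^ e * r ^ 1)⁻¹ * y * (h 20 * (a ^ e * r ^ 1)⁻¹)⁻¹) * (γ 20)⁻¹ =
    ψ0 (μ e * y * (μ e)⁻¹)
  q : ∀ e < 2, ∀ e' < 2, ∀ m < 4, m % 2 = 1 → ∃ j, 0 < j ∧ j < 23 ∧
    Ty γ (γ 20 * ψ0 (h 20 * (a ^ e * r ^ 1)⁻¹ * (a ^ e' * r ^ m)⁻¹ * (μ e)⁻¹) * γ 20) j
  t3 : Ty γ (γ 19 * ψ0 (h 19 * a⁻¹ * k) * γ 6 * ψ0 (h 19 * a⁻¹)⁻¹ * (γ 19)⁻¹) 20

section

variable [Nontrivial BabyMonster] {γ : ℕ → BabyMonster} {τ : ℕ → ℕ → ℕ} {sz : ℕ → ℕ}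
  (T : BT γ 23 τ sz)
include T

theorem Ty.uniq {g : BabyMonster} {i j : ℕ} (h1 : Ty γ g i) (h2 : Ty γ g j) (hi : i < 23)
    (hj : j < 23) : i = j :=
  T.tab.sep T.ne T.sep hj i hi g (Table.cls_iff.2 h1) (Table.cls_iff.2 h2)

theorem Ty.not_mem {g : BabyMonster} {i : ℕ} (h1 : Ty γ g i) (h0 : 0 < i) (hi : i < 23) :
    g ∉ ψ0.range := by
  obtain ⟨v, w, rfl⟩ := h1
  exact Tab0.not_mem T.ne h0 hi v w

theorem Ty.mem {g : BabyMonster} (h1 : Ty γ g 0) : g ∈ ψ0.range := by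
  obtain ⟨v, w, rfl⟩ := h1
  exact ⟨v * w, by rw [T.tab.g0, mul_one, map_mul]⟩

theorem Ty.not_dvd {g : BabyMonster} {i : ℕ} (h1 : Ty γ g i) (hi : i < 23) {u : Fi23}
    (h : g⁻¹ * ψ0 u * g ∈ ψ0.range) (hq : ¬ orderOf u * orderOf u ∣ Nat.card Fi23) :
    ¬ orderOf u ∣ sz i := by
  classical
  have := T.finite
  have := Fintype.ofFinite (BabyMonster ⧸ ψ0.range)
  let _ : MulAction Fi23 (BabyMonster ⧸ ψ0.range) := MulAction.compHom _ ψ0
  have h2 : u ∈ MulAction.stabilizer Fi23 (g : BabyMonster ⧸ ψ0.range) := by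
    change ((ψ0 u * g : BabyMonster) : BabyMonster ⧸ ψ0.range) = g
    exact (QuotientGroup.eq.2 (by rwa [← mul_assoc])).symm
  have h3 : (MulAction.stabilizer Fi23 (g : BabyMonster ⧸ ψ0.range)).index = sz i := by
    obtain ⟨v, w, rfl⟩ := h1
    rw [MulAction.index_stabilizer, ← T.tab.card_cls T.ne T.sep hi, ← Set.ncard_coe_finset]
    congr 1
    ext y
    simp only [Finset.coe_filter, Finset.mem_univ, true_and, Set.mem_ofPred_eq]
    constructor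
    · rintro ⟨a, rfl⟩
      exact Table.cls_mul a (Table.cls_iff.2 ⟨v, w, rfl⟩)
    · rintro ⟨a, rfl⟩
      refine ⟨a * v⁻¹, ?_⟩
      change ((ψ0 (a * v⁻¹) * (ψ0 v * γ i * ψ0 w) : BabyMonster) : BabyMonster ⧸ ψ0.range) = _
      rw [map_mul, map_inv, ← mul_assoc, ← mul_assoc, inv_mul_cancel_right]
      exact QuotientGroup.mk_mul_of_mem _ ⟨w, rfl⟩
  intro e
  exact hq ((Nat.mul_dvd_mul (h3 ▸ e) (Subgroup.orderOf_dvd_natCard _ h2)).trans
    (Subgroup.index_mul_card _).dvd)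

variable (hz : ∀ i < 23, (¬ 23 ∣ sz i → i = 0 ∨ i = 6) ∧
    (¬ 11 ∣ sz i → i = 0 ∨ i ∈ [6, 7, 15, 19, 20, 21]))
  {x y f a r k : Fi23} {h μ : ℕ → Fi23} (F : HF x y f a r) (C : Cert γ x y f a r k h μ)

omit T in
theorem mem_H (z : Fi23) : ψ0 z ∈ ψ0.range := ⟨z, rfl⟩

omit T in
include C in
theorem s_x : ψ0 k * γ 6 * ψ0 x * (ψ0 k * γ 6)⁻¹ = ψ0 x := by
  calc _ = ψ0 k * (γ 6 * ψ0 x * (γ 6)⁻¹) * (ψ0 k)⁻¹ := by group
    _ = _ := by rw [C.sx, map_mul, map_mul, map_inv]; group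

omit T in
include C in
theorem s_y : ψ0 k * γ 6 * ψ0 y * (ψ0 k * γ 6)⁻¹ = ψ0 y := by
  calc _ = ψ0 k * (γ 6 * ψ0 y * (γ 6)⁻¹) * (ψ0 k)⁻¹ := by group
    _ = _ := by rw [C.sy, map_mul, map_mul, map_inv]; group

omit T in
include F C in
theorem s_comm {n : Fi23} (hn : n * x * n⁻¹ ∈ zpowers x) : Commute (ψ0 k * γ 6) (ψ0 n) := by
  have : Subgroup.closure {x, y} ≤ (centralizer {ψ0 k * γ 6}).comap ψ0 := by
    rw [closure_le]
    rintro _ (rfl | rfl)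
    · exact mem_centralizer_singleton_iff.2 (mul_inv_eq_iff_eq_mul.1 (s_x C)).symm
    · exact mem_centralizer_singleton_iff.2 (mul_inv_eq_iff_eq_mul.1 (s_y C)).symm
  exact (mem_centralizer_singleton_iff.1 (this (norm23 F.trip hn))).symm

include hz F C

/-- the cosets fixed by `x` -/
theorem fix23 {g : BabyMonster} (hg : g⁻¹ * ψ0 x * g ∈ ψ0.range) :
    g ∈ ψ0.range ∨ (ψ0 k * γ 6)⁻¹ * g ∈ ψ0.range := by
  obtain ⟨i, hi, h1⟩ := T.tab.exists_rep g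
  have h2 := Ty.not_dvd T h1 hi hg (by rw [F.trip.ord_x, Fi23.card]; norm_num)
  rw [F.trip.ord_x] at h2
  rcases (hz i hi).1 h2 with rfl | rfl
  · exact Or.inl (Ty.mem T h1)
  obtain ⟨v, w, rfl⟩ := h1
  have h6 := fun n hn => s_comm F C (n := n) hn
  obtain ⟨s, hs⟩ : ∃ s, s = ψ0 k * γ 6 := ⟨_, rfl⟩
  have h3 : γ 6 = (ψ0 k)⁻¹ * s := by rw [hs]; group
  rw [← hs] at h6 ⊢
  rw [h3] at hg ⊢
  obtain ⟨n, h4, h5⟩ := exists_norm (q := 23) (a := 177803064056217600) (by norm_num) Fi23.card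
    (by norm_num) (K := Kg s⁻¹) (g := v * k⁻¹) F.trip.ord_x (by
      rw [mem_Kg, inv_inv, mul_assoc, ← (h6 x (by simp)).eq, inv_mul_cancel_left]
      exact mem_H x) (by
      have := mul_mem (mul_mem (mem_H w) hg) (inv_mem (mem_H w))
      rw [mem_Kg]
      simp only [map_mul, map_inv]
      convert this using 1
      group)
  have h7 := mul_mem (mul_mem (mem_H n) (mem_Kg.1 h5)) (mem_H w)
  refine Or.inr ?_
  simp only [map_mul, map_inv, ← mul_assoc] at h7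
  rw [← (h6 n h4).inv_left.eq] at h7
  convert h7 using 1
  group

/-- the involutions which complete `x, y` lie in two cosets -/
theorem lemA {W : BabyMonster} (hW : Trip (ψ0 x) (ψ0 y) W) :
    W ∈ ψ0.range ∨ W * (γ 19 * ψ0 (h 19 * a⁻¹))⁻¹ ∈ ψ0.range := by
  have hy : W * ψ0 y * W⁻¹ = (ψ0 y)⁻¹ := by rw [hW.winv, hW.wy]
  obtain ⟨i, hi, h1⟩ := T.tab.exists_rep W
  have h2 := Ty.not_dvd T h1 hi (u := y) (by rw [hW.winv, hW.wy]; exact inv_mem (mem_H y))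
    (by rw [F.trip.ord_y, Fi23.card]; norm_num)
  rw [F.trip.ord_y] at h2
  rcases (hz i hi).2 h2 with rfl | hi'
  · exact Or.inl (Ty.mem T h1)
  have key : ∃ e < 2, ∃ m < 4, W * (γ i * ψ0 (h i * (a ^ e * r ^ m)⁻¹))⁻¹ ∈ ψ0.range := by
    obtain ⟨v, w, e⟩ := h1
    have m1 : ∀ z, γ i * ψ0 (h i * z * (h i)⁻¹) * (γ i)⁻¹ ∈ ψ0.range → z ∈ Kg (γ i * ψ0 (h i)) :=
      fun z hz => by
        rw [mem_Kg]
        simp only [map_mul, map_inv] at hz
        convert hz using 1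
        group
    obtain ⟨n, h4, h5⟩ := exists_norm (q := 11) (a := 371770043026636800) (by norm_num) Fi23.card
      (by norm_num) (K := Kg (γ i * ψ0 (h i))) (g := w⁻¹ * h i) F.trip.ord_y (m1 y (C.hy i hi')) (by
        have := mul_mem (mul_mem (inv_mem (mem_H v)) (hy ▸ inv_mem (mem_H y))) (mem_H v)
        rw [mem_Kg]
        simp only [map_mul, map_inv]
        convert this using 1
        rw [e]
        group)
    obtain ⟨e', he, m, hm, j, -, i', -, rfl⟩ := F.nf n h4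
    refine ⟨e', he, m, hm, ?_⟩
    have h6 := mul_mem (mem_H v) (inv_mem (mem_Kg.1 (mul_mem (mul_mem (pow_mem (m1 f (C.hf i hi')) j)
      (pow_mem (m1 y (C.hy i hi')) i')) h5)))
    generalize a ^ e' * r ^ m = c at h6 ⊢
    generalize f ^ j = c1 at h6
    generalize y ^ i' = c2 at h6
    simp only [map_mul, map_inv] at h6 ⊢
    convert h6 using 1
    rw [e]
    group
  obtain ⟨e, he, m, hm, η, hη⟩ := key
  obtain ⟨j, hj, h3, h4⟩ := C.t1 i hi' e he m hm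
  have h5 : j = i := by
    refine Ty.uniq T (h3.mul η η⁻¹) ?_ hj hi
    have := Ty.mul h1 x⁻¹ x⁻¹
    rw [map_inv, ← hW.wxw] at this
    nth_rewrite 2 [← hW.winv] at this
    convert this using 1
    rw [eq_mul_inv_iff_mul_eq] at hη
    rw [← hη]
    simp only [map_mul, map_inv]
    group
  rcases h4 h5 with ⟨rfl, rfl, rfl⟩ | ⟨rfl, rfl⟩
  · refine Or.inr ⟨η, ?_⟩
    simpa only [pow_one, pow_zero, mul_one] using hη
  exfalso
  have h6 := C.l e he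
  have h7 := C.q e he
  generalize h 20 * (a ^ e * r ^ 1)⁻¹ = c at hη h6 h7
  obtain ⟨V, hV⟩ : ∃ V, V = γ 20 * ψ0 c := ⟨_, rfl⟩
  have h8 : V * ψ0 y * V⁻¹ = ψ0 (μ e) * ψ0 y * (ψ0 (μ e))⁻¹ := by
    simp only [map_mul, map_inv] at h6
    rw [← h6, hV]
    group
  rw [← hV, eq_mul_inv_iff_mul_eq] at hη
  have h9 : (ψ0 η)⁻¹ = V * W := by rw [← hW.winv, ← hη]; group
  obtain ⟨e', he', m, hm, hm', i, -, h10⟩ := F.inverts (n := (μ e)⁻¹ * η⁻¹) (ψ0_inj (by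
    simp only [map_mul, map_inv]
    rw [h9]
    calc _ = (ψ0 (μ e))⁻¹ * V * (W * ψ0 y * W⁻¹) * V⁻¹ * ψ0 (μ e) := by group
      _ = (ψ0 (μ e))⁻¹ * (V * ψ0 y * V⁻¹)⁻¹ * ψ0 (μ e) := by rw [hy]; group
      _ = _ := by rw [h8]; group))
  obtain ⟨j, j0, hj, h11⟩ := h7 e' he' m hm hm'
  refine Ty.not_mem T h11 j0 hj ?_
  have h12 : y ∈ Kg V := by
    rw [mem_Kg, h8]
    exact mul_mem (mul_mem (mem_H _) (mem_H _)) (inv_mem (mem_H _))
  have h13 := mul_mem (mul_mem (mem_Kg.1 (pow_mem h12 i)) (h9 ▸ inv_mem (mem_H η)))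
    (inv_mem (mem_H c))
  have h14 : η = (y ^ i)⁻¹ * (a ^ e' * r ^ m)⁻¹ * (μ e)⁻¹ := by
    rw [← _root_.mul_inv_rev, ← h10]
    group
  rw [← hη, h14, hV] at h13
  generalize a ^ e' * r ^ m = c1 at h13 ⊢
  generalize y ^ i = c2 at h13
  simp only [map_mul, map_inv] at h13 ⊢
  convert h13 using 1
  group

omit hz T F in
theorem trip_s {W : BabyMonster} (hW : Trip (ψ0 x) (ψ0 y) W) :
    Trip (ψ0 x) (ψ0 y) (ψ0 k * γ 6 * W * (ψ0 k * γ 6)⁻¹) := by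
  have := hW.conj (ψ0 k * γ 6)
  rwa [s_x C, s_y C] at this

theorem lemB {W : BabyMonster} (hW : Trip (ψ0 x) (ψ0 y) W) :
    W ∈ ψ0.range ∨ ψ0 k * γ 6 * W * (ψ0 k * γ 6)⁻¹ ∈ ψ0.range := by
  refine (lemA T hz F C hW).imp_right fun ⟨η, h1⟩ =>
    (lemA T hz F C (trip_s C hW)).resolve_right fun ⟨η', h2⟩ => ?_
  have h3 := (trip_s C hW).winv
  have h4 : Ty γ (ψ0 η'⁻¹ * (ψ0 k * γ 6 * ψ0 1) * ψ0 η) 6 := Ty.mul ⟨k, 1, rfl⟩ _ _
  refine absurd (Ty.uniq T C.t3 (j := 6) ?_ (by norm_num) (by norm_num)) (by norm_num)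
  convert h4 using 1
  generalize h 19 * a⁻¹ = c at h1 h2 ⊢
  simp only [map_mul, map_inv, map_one]
  rw [h1, h2]
  group

omit hz T F C in
theorem map_conj_closure (g X Y W : BabyMonster) :
    (Subgroup.closure {X, Y, W}).map (MulAut.conj g).toMonoidHom =
      Subgroup.closure {g * X * g⁻¹, g * Y * g⁻¹, g * W * g⁻¹} := by
  rw [MonoidHom.map_closure, Set.image_insert_eq, Set.image_insert_eq, Set.image_singleton]
  rfl

omit hz T F C in
theorem of_conj (g : BabyMonster) {X Y W : BabyMonster} {L : Subgroup BabyMonster}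
    (h : ∃ u, (Subgroup.closure {g * X * g⁻¹, g * Y * g⁻¹, g * W * g⁻¹}).map
      (MulAut.conj u).toMonoidHom = L) :
    ∃ u, (Subgroup.closure {X, Y, W}).map (MulAut.conj u).toMonoidHom = L := by
  obtain ⟨u, rfl⟩ := h
  refine ⟨u * g, ?_⟩
  simp only [map_conj_closure, _root_.mul_inv_rev, mul_assoc]

theorem conj0 {W : BabyMonster} (hW : Trip (ψ0 x) (ψ0 y) W) :
    ∃ u, (Subgroup.closure {ψ0 x, ψ0 y, W}).map (MulAut.conj u).toMonoidHom =
      (Subgroup.closure {x, y, a * r}).map ψ0 := by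
  have key : ∀ W, Trip (ψ0 x) (ψ0 y) W → W ∈ ψ0.range → ∃ u,
      (Subgroup.closure {ψ0 x, ψ0 y, W}).map (MulAut.conj u).toMonoidHom =
        (Subgroup.closure {x, y, a * r}).map ψ0 := by
    rintro _ hW ⟨w, rfl⟩
    refine ⟨1, ?_⟩
    rw [← F.closure_eq (Trip.of_map ψ0_inj hW), map_conj_closure, MonoidHom.map_closure,
      Set.image_insert_eq, Set.image_insert_eq, Set.image_singleton]
    simp only [one_mul, inv_one, mul_one]
  rcases lemB T hz F C hW with h1 | h1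
  · exact key W hW h1
  · refine of_conj (ψ0 k * γ 6) ?_
    rw [s_x C, s_y C]
    exact key _ (trip_s C hW) h1

theorem conj1 {Y W : BabyMonster} (hW : Trip (ψ0 x) Y W) :
    ∃ u, (Subgroup.closure {ψ0 x, Y, W}).map (MulAut.conj u).toMonoidHom =
      (Subgroup.closure {x, y, a * r}).map ψ0 := by
  have h1 : ∀ i, Y ^ i ∈ ψ0.range ∨ (ψ0 k * γ 6)⁻¹ * Y ^ i ∈ ψ0.range := fun i =>
    fix23 T hz F C (by
      have := hW.pow_conj (10 * i) 1
      rw [pow_mul, eq_inv_of_mul_eq_one_left ((pow_succ Y 10).symm.trans hW.y11), inv_pow, inv_inv,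
        pow_one] at this
      rw [this]
      exact pow_mem (mem_H x) _)
  obtain ⟨v, rfl⟩ : Y ∈ ψ0.range := by
    refine (pow_one Y ▸ h1 1).elim id fun h2 => (h1 2).elim (fun h3 => ?_) fun h3 => ?_
    · have := pow_mem h3 6
      rwa [← pow_mul, pow_succ, hW.y11, one_mul] at this
    · rwa [pow_two, ← mul_assoc, Subgroup.mul_mem_cancel_left _ h2] at h3
  have h2 : v * x * v⁻¹ = x ^ 4 := ψ0_inj (by simpa using hW.yx)
  obtain ⟨j, hj⟩ := cen23 F.trip (g := y⁻¹ * v) (by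
    calc _ = y⁻¹ * (v * x * v⁻¹) * v := by group
      _ = _ := by rw [h2, ← F.trip.yx]; group)
  have h3 : x ^ (32 * j) * v * (x ^ (32 * j))⁻¹ = y := by
    have h4 : y * x ^ (8 * j) * y⁻¹ = x ^ (32 * j) := by
      rw [← conj_zpow, F.trip.yx, ← zpow_natCast, ← zpow_mul]
      congr 1
      push_cast
      ring
    have h5 : x ^ (23 * j) = 1 := by
      rw [zpow_mul, show (23 : ℤ) = (23 : ℕ) from rfl, zpow_natCast, F.trip.x23, one_zpow]
    have h6 : v = y * x ^ j := by rw [show x ^ j = _ from hj]; group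
    nth_rewrite 1 [← h4]
    calc _ = y * (x ^ (23 * j))⁻¹ := by rw [h6]; group
      _ = _ := by rw [h5]; group
  have h4 : ψ0 (x ^ (32 * j)) * ψ0 x * (ψ0 (x ^ (32 * j)))⁻¹ = ψ0 x := by rw [map_zpow]; group
  have h5 : ψ0 (x ^ (32 * j)) * ψ0 v * (ψ0 (x ^ (32 * j)))⁻¹ = ψ0 y := by
    rw [← map_inv, ← map_mul, ← map_mul, h3]
  have h6 := hW.conj (ψ0 (x ^ (32 * j)))
  refine of_conj (ψ0 (x ^ (32 * j))) ?_
  rw [h4, h5] at h6 ⊢
  exact conj0 T hz F C h6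

theorem conj2 {X Y W : BabyMonster} (hW : Trip X Y W) :
    ∃ u, (Subgroup.closure {X, Y, W}).map (MulAut.conj u).toMonoidHom =
      (Subgroup.closure {x, y, a * r}).map ψ0 := by
  have := T.finite
  have T0 := F.trip.map ψ0 fun e => F.trip.x1 (ψ0_inj (e.trans (map_one _).symm))
  obtain ⟨g, hg⟩ := CL.Fi.exists_conj_of_card (q := 23) (a := 180642673096801138746851328000000)
    (by norm_num) T.card (by norm_num) ((Nat.card_zpowers _).trans hW.ord_x)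
    ((Nat.card_zpowers _).trans T0.ord_x)
  obtain ⟨j, hj⟩ := mem_powers_iff_mem_zpowers.2 (hg.le (mem_map_of_mem _ (mem_zpowers X)))
  have hj : ψ0 x ^ (j % 23) = g * X * g⁻¹ := (T0.x_mod j).trans hj
  have h1 := hW.conj g
  refine of_conj g ?_
  rw [← hj] at h1 ⊢
  have h2 : ∀ j < 23, j ≠ 0 → ∃ i < 11, 4 ^ i * j % 23 = 1 ∨ 4 ^ i * j % 23 = 22 := by decide
  obtain ⟨i, -, h3⟩ := h2 _ (Nat.mod_lt j (by norm_num)) fun e => h1.x1 (by rw [e, pow_zero])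
  have h4 := h1.conj (ψ0 y ^ i)
  refine of_conj (ψ0 y ^ i) ?_
  rw [T0.pow_conj, ← T0.x_mod] at h4 ⊢
  rcases h3 with e | e <;> rw [e] at h4 ⊢
  · rw [pow_one] at h4 ⊢
    exact conj1 T hz F C h4
  · rw [eq_inv_of_mul_eq_one_left ((pow_succ (ψ0 x) 22).symm.trans T0.x23)] at h4 ⊢
    have h5 := h4.inv
    rw [inv_inv] at h5
    obtain ⟨u, hu⟩ := conj1 T hz F C h5
    refine ⟨u, Eq.trans (congrArg _ ?_) hu⟩
    rw [Set.insert_eq, Set.insert_eq (ψ0 x), Subgroup.closure_union, Subgroup.closure_union,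
      closure_singleton_inv]

theorem self_norm : normalizer ((Subgroup.closure {x, y, a * r}).map ψ0 : Set BabyMonster) =
    (Subgroup.closure {x, y, a * r}).map ψ0 := by
  have := T.finite
  have T0 := F.trip.map ψ0 fun e => F.trip.x1 (ψ0_inj (e.trans (map_one _).symm))
  have m1 : Subgroup.closure {x, y} ≤ Subgroup.closure {x, y, a * r} :=
    closure_mono (Set.insert_subset_insert (by simp))
  have m2 : ψ0 x ∈ (Subgroup.closure {x, y, a * r}).map ψ0 :=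
    mem_map_of_mem _ (subset_closure (by simp))
  have m3 : ψ0 (a * r) ∈ (Subgroup.closure {x, y, a * r}).map ψ0 :=
    mem_map_of_mem _ (subset_closure (by simp))
  have m4 : ∀ n, ψ0 n * ψ0 x * (ψ0 n)⁻¹ ∈ zpowers (ψ0 x) →
      ψ0 n ∈ (Subgroup.closure {x, y, a * r}).map ψ0 := fun n ⟨j, hj⟩ =>
    mem_map_of_mem _ (m1 (norm23 F.trip ⟨j, ψ0_inj (by simpa using hj)⟩))
  have m5 := map_le_range ψ0 (Subgroup.closure {x, y, a * r})
  generalize (Subgroup.closure {x, y, a * r}).map ψ0 = L at m2 m3 m4 m5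
  refine le_antisymm (fun g hg => ?_) le_normalizer
  obtain ⟨n, h1, h2⟩ := exists_norm (q := 23) (a := 180642673096801138746851328000000)
    (by norm_num) T.card (by norm_num) T0.ord_x m2 ((mem_normalizer_iff''.1 hg _).1 m2)
  have h3 := inv_mem (CL.FiN.mem_normalizer_zpowers.2 h1)
  have h4 := CL.FiN.mem_normalizer_zpowers.1 h3
  rw [inv_inv] at h4
  rcases fix23 T hz F C (zpowers_le.2 (mem_H x) h4) with ⟨v, rfl⟩ | ⟨v, hv⟩
  · exact (Subgroup.mul_mem_cancel_left _ (inv_mem (m4 v h1))).1 h2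
  exfalso
  have h5 : ψ0 k * γ 6 ∈ normalizer (zpowers (ψ0 x) : Set BabyMonster) :=
    CL.FiN.mem_normalizer_zpowers.2 (by rw [s_x C]; exact mem_zpowers _)
  have h6 := m4 v (CL.FiN.mem_normalizer_zpowers.1
    (hv ▸ mul_mem (inv_mem h5) (CL.FiN.mem_normalizer_zpowers.2 h1)))
  have h7 : ψ0 k * γ 6 ∈ normalizer (L : Set BabyMonster) := by
    have := mul_mem (mul_mem hg (inv_mem (le_normalizer h2))) (inv_mem (le_normalizer h6))
    rw [hv] at this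
    convert this using 1
    group
  refine Ty.not_mem T (C.sb.mul k k⁻¹) (by norm_num) (by norm_num) ?_
  convert m5 ((mem_normalizer_iff.1 h7 _).1 m3) using 1
  rw [map_inv]
  group

theorem main {E : Type*} [Field E] [Fintype E] (hE : Fintype.card E = 23) :
    (∃ H : Subgroup BabyMonster, Nonempty (H ≃* Matrix.ProjectiveSpecialLinearGroup (Fin 2) E)) ∧
    (∀ H₁ H₂ : Subgroup BabyMonster,
      Nonempty (H₁ ≃* Matrix.ProjectiveSpecialLinearGroup (Fin 2) E) →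
      Nonempty (H₂ ≃* Matrix.ProjectiveSpecialLinearGroup (Fin 2) E) →
      ∃ g : BabyMonster, H₂ = H₁.map (MulAut.conj g).toMonoidHom) ∧
    (∀ H : Subgroup BabyMonster, Nonempty (H ≃* Matrix.ProjectiveSpecialLinearGroup (Fin 2) E) →
      normalizer (H : Set BabyMonster) = H ∧
        ∃ M : Subgroup BabyMonster, IsCoatom M ∧ IsoFi23 M ∧ H ≤ M) := by
  have key : ∀ H : Subgroup BabyMonster,
      Nonempty (H ≃* Matrix.ProjectiveSpecialLinearGroup (Fin 2) E) → ∃ u,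
      H = ((Subgroup.closure {x, y, a * r}).map ψ0).map (MulAut.conj u).toMonoidHom := by
    rintro H ⟨e⟩
    obtain ⟨X, Y, W, h1, rfl⟩ := exists_trip hE e
    obtain ⟨u, hu⟩ := conj2 T hz F C h1
    refine ⟨u⁻¹, ?_⟩
    rw [← hu]
    simp only [map_conj_closure]
    congr <;> group
  refine ⟨⟨_, (F.trip.map ψ0 fun e =>
    F.trip.x1 (ψ0_inj (e.trans (map_one _).symm))).nonempty_equiv hE⟩, fun H₁ H₂ h1 h2 => ?_,
    fun H h1 => ?_⟩
  · obtain ⟨u, rfl⟩ := key _ h1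
    obtain ⟨v, rfl⟩ := key _ h2
    refine ⟨v * u⁻¹, ?_⟩
    rw [Subgroup.map_map (f := (MulAut.conj u).toMonoidHom)]
    congr 1
    ext z
    simp [mul_assoc]
  · obtain ⟨u, rfl⟩ := key _ h1
    refine ⟨?_, ψ0.range.map (MulAut.conj u).toMonoidHom, ?_, ?_, map_mono (map_le_range _ _)⟩
    · rw [← map_equiv_normalizer_eq, self_norm T hz F C]
    · exact ((MulAut.conj u).mapSubgroup.isCoatom_iff _).2 T.isCoatom
    · exact ⟨((MulAut.conj u).subgroupMap _).symm.trans (MonoidHom.ofInjective ψ0_inj).symm⟩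

end

end CL.BL
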