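/-
The checks for the subgroups `L₂(23)` of the Baby Monster.
-/
import Cfsg.Agent.SPOR.BL.Dat

set_option autoImplicit false

namespace CL.BL
open CL.CE CL.K CL.DCE CL.BM

/-- iteration -/
noncomputable def iter (f : ℕ → ℕ) (n : ℕ) : ℕ → ℕ :=
  Nat.rec (motive := fun _ => ℕ → ℕ) (fun p => p) (fun _ ih p => force (f p) ih) n

/-- the first `n` iterates -/
noncomputable def orbL (f : ℕ → ℕ) (n : ℕ) : ℕ → List ℕ :=
  Nat.rec (motive := fun _ => ℕ → List ℕ) (fun _ => [])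
    (fun _ ih p => force p fun q => q :: ih (f q)) n

/-- no repetitions, and no members of `M` -/
noncomputable def fresh (L : List ℕ) : ℕ → Bool :=
  List.rec (motive := fun _ => ℕ → Bool) (fun _ => true)
    (fun q _ ih M => !Nat.testBit M q && force (Nat.lor M (Nat.pow 2 q)) ih) L

noncomputable def P (j : ℕ) : ℕ → ℕ := apW pa (els.getD j 0)
noncomputable def Q (j : ℕ) : ℕ → ℕ := apW pa (eli.getD j 0)
noncomputable def cF (e m p : ℕ) : ℕ := iter (P 3) e (iter (P 4) m p)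
noncomputable def cI (e m p : ℕ) : ℕ := iter (Q 4) m (iter (Q 3) e p)
noncomputable def vF (i e m p : ℕ) : ℕ := P i (cI e m p)
noncomputable def vI (i e m p : ℕ) : ℕ := cF e m (Q i p)

/-- a walk from the node `i` along the path `R` -/
noncomputable def wk (R st i : ℕ) (X : ℕ → ℕ) (k : ℕ → (ℕ → ℕ) → (ℕ → ℕ) → Bool) : Bool :=
  walk pa bs E2.st.get 1739 (slot R) (fun _ c B X => k c B X) (fa R) 0 (wt.get st) i (fun p => p) X

noncomputable def wE (st i : ℕ) (X Z : ℕ → ℕ) : Bool :=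
  wk (dls.getD i 0) st i X fun c B X' => Nat.beq c 0 && eqB bs (fun p => B (X' p)) Z

noncomputable def wT (st i : ℕ) (X : ℕ → ℕ) (k : ℕ → Bool) : Bool :=
  wk (dls.getD i 0) st i X fun c _ _ => k c

noncomputable def invOK : Bool := allLt (fun j => eqB bs (fun p => P j (Q j p)) fun p => p) 22

noncomputable def relOK : Bool :=
  eqB bs (iter (P 0) 23) (fun p => p) && (!eqB bs (P 0) (fun p => p) &&
  (eqB bs (iter (P 1) 11) (fun p => p) && (eqB bs (fun p => P 1 (P 0 (Q 1 p))) (iter (P 0) 4) &&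
  (eqB bs (fun p => P 3 (P 4 (P 3 (P 4 p)))) (fun p => p) &&
  (eqB bs (fun p => P 3 (P 4 (P 1 (P 3 (P 4 p))))) (Q 1) &&
  (eqB bs (fun p => P 0 (P 3 (P 4 (P 0 (P 3 (P 4 (P 0 p))))))) (fun p => P 3 (P 4 p)) &&
  (eqB bs (fun p => P 3 (P 1 (Q 3 p))) (P 1) && (eqB bs (fun p => P 4 (P 1 (Q 4 p))) (Q 1) &&
    eqB bs (fun p => P 2 (P 1 (Q 2 p))) (iter (P 1) 3)))))))))

noncomputable def nfOK (p : ℕ) : Bool :=
  fresh ((((orbL (P 1) 11 p).flatMap (orbL (P 2) 5)).flatMap (orbL (P 4) 4)).flatMap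
    (orbL (P 3) 2)) 0

noncomputable def ivOK : Bool := allLt (fun e => allLt (fun m => allLt (fun j =>
  (Nat.beq (Nat.mod m 2) 1 && Nat.beq j 0) ||
    !eqB bs (fun p => P 1 (cF e m (iter (P 2) j (P 1 p)))) fun p => cF e m (iter (P 2) j p)) 5) 4) 2

noncomputable def cubOK : Bool := allLt (fun e => allLt (fun m => allLt (fun i =>
  Nat.beq (Nat.mod m 2) 0 || ((Nat.beq e 1 && Nat.beq m 1) ||
    !eqB bs (iter (fun p => cF e m (iter (P 1) i (P 0 p))) 3) fun p => p)) 11) 4) 2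

noncomputable def oOK (i : ℕ) : Bool :=
  wE i i (fun p => p) (fun p => p) &&
    (wT (i + 24) i (fun p => P i (P 1 (Q i p))) (fun c => Nat.beq c 0) &&
      wT (i + 48) i (fun p => P i (P 2 (Q i p))) fun c => Nat.beq c 0)

noncomputable def tOK (i e : ℕ) : Bool := allLt (fun m =>
  wT (96 + 8 * i + 4 * e + m) i (fun p => vF i e m (P 0 (vI i e m p))) fun c =>
    Nat.blt c 23 && (!Nat.beq c i || ((Nat.beq i 19 && (Nat.beq e 1 && Nat.beq m 0)) ||
      (Nat.beq i 20 && Nat.beq m 1)))) 4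

noncomputable def sOK : Bool :=
  wE 0 6 (P 0) (fun p => Q 5 (P 0 (P 5 p))) && (wE 1 6 (P 1) (fun p => Q 5 (P 1 (P 5 p))) &&
    wT 2 6 (fun p => P 3 (P 4 p)) fun c => Nat.beq c 19)

noncomputable def lOK (e : ℕ) : Bool :=
  wE (3 + e) 20 (fun p => vF 20 e 1 (P 1 (vI 20 e 1 p))) fun p => P (8 + e) (P 1 (Q (8 + e) p))

noncomputable def qOK (e : ℕ) : Bool := allLt (fun e' => allLt (fun n =>
  wk (E2.pt.get 20) (72 + 4 * e + 2 * e' + n) 20
    (fun p => vF 20 e 1 (cI e' (2 * n + 1) (Q (8 + e) p))) fun c _ _ =>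
      Nat.blt 0 c && Nat.blt c 23) 2) 2

noncomputable def uOK : Bool :=
  wk (E2.pt.get 6) 80 19 (fun p => P 19 (Q 3 (P 5 p))) fun c _ X =>
    wk (dls.getD 19 0) 81 c (fun p => X (P 3 (Q 19 p))) fun c _ _ => Nat.beq c 20

end CL.BL
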