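/- Kernel checks for the subgroups `L₂(23)` of the Baby Monster. -/
import Cfsg.Agent.SPOR.BL.Chk
set_option autoImplicit false
set_option Elab.async false
set_option maxRecDepth 100000

namespace CL.BL

theorem inv_ok : invOK = true := by decide +kernel
theorem rel_ok : relOK = true := by decide +kernel
theorem nf_ok : nfOK 0 = true := by decide +kernel
theorem iv_ok : ivOK = true := by decide +kernel
theorem cub_ok : cubOK = true := by decide +kernel
theorem s_ok : sOK = true := by decide +kernel
theorem u_ok : uOK = true := by decide +kernel
theorem l0 : lOK 0 = true := by decide +kernel
theorem q0 : qOK 0 = true := by decide +kernel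
theorem l1 : lOK 1 = true := by decide +kernel
theorem q1 : qOK 1 = true := by decide +kernel
theorem o6 : oOK 6 = true := by decide +kernel
theorem o7 : oOK 7 = true := by decide +kernel
theorem o15 : oOK 15 = true := by decide +kernel
theorem o19 : oOK 19 = true := by decide +kernel
theorem o20 : oOK 20 = true := by decide +kernel
theorem o21 : oOK 21 = true := by decide +kernel

end CL.BL
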