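/- Kernel checks for the subgroups `L₂(23)` of the Baby Monster. -/
import Cfsg.Agent.SPOR.BL.Chk
set_option autoImplicit false
set_option Elab.async false
set_option maxRecDepth 100000

namespace CL.BL

theorem t19_0 : tOK 19 0 = true := by decide +kernel
theorem t19_1 : tOK 19 1 = true := by decide +kernel
theorem t20_0 : tOK 20 0 = true := by decide +kernel
theorem t20_1 : tOK 20 1 = true := by decide +kernel
theorem t21_0 : tOK 21 0 = true := by decide +kernel
theorem t21_1 : tOK 21 1 = true := by decide +kernel

end CL.BL
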